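import Groth.Agent.Models2.TensCoh
import Groth.Agent.PerfC.LTBound
import Groth.Agent.PerfB.PCNoeth

/-!
# Derived tensor product of a pseudo-coherent object with a complex with coherent cohomology

`isCohD_LTensorCx`: on a locally Noetherian scheme, if `K` is a complex with coherent cohomology sheaves
bounded above, and `E` is `m`-pseudo-coherent for all `m`, then `E ⊗ᴸ K` has coherent cohomology
sheaves.
-/

set_option autoImplicit false
universe u
open CategoryTheory CategoryTheory.Limits AlgebraicGeometry Pretriangulated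
attribute [local instance] HasDerivedCategory.standard

namespace Groth.Agent.Htor.H250.TensCohPc

open Groth.Agent.PerfA Groth.Agent.PerfA.CohSerre Groth.Agent.PerfC Groth.Agent.CohqB
  Groth.Agent.PerfC.IsoLocus Groth.Agent.Dcoh Groth.Agent.Models2

variable {X : Scheme.{u}}

/-- Tensoring with a finite locally free module preserves complexes with coherent cohomology. -/
lemma isCohD_tensor_single (M : X.Modules) (hM : FlatMod.IsFinLocFree M)
    (K : CochainComplex X.Modules ℤ) (hK : CohomIn.coh (cohp X) (DerivedCategory.Q.obj K)) :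
    CohomIn.coh (cohp X) (DerivedCategory.Q.obj
      ((DCoh.tensorCx.obj ((HomologicalComplex.single X.Modules (.up ℤ) 0).obj M)).obj K)) := by
  have hfl : FlatMod.IsFlat M := Spread.isFlat_of_isFinLocFree hM
  have := KFlatMod.preservesHomology_obj M hfl
  have : PreservesFiniteLimits (DCoh.tensorBi.obj M) := Stalk.preservesFiniteLimits_tensorBi_obj M hfl
  have : PreservesFiniteColimits (DCoh.tensorBi.obj M) :=
    (DCoh.tensorBi.obj M).preservesFiniteColimits_of_preservesHomology
  refine (CohomIn.coh (cohp X)).prop_of_iso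
    (DerivedCategory.Q.mapIso (TensSingle.singleLeftIsoApp DCoh.tensorBi M K)) ?_
  refine (CohomIn.coh (cohp X)).prop_of_iso ((DCoh.tensorBi.obj M).mapDerivedCategoryFactors.app K) ?_
  intro i
  refine isCoh_of_iso ((ExactD.mapHomology (DCoh.tensorBi.obj M) i).app _).symm ?_
  have hN : Coh.IsCoh (DCoh.HD (DerivedCategory.Q.obj K) i) := hK i
  have hM' : Coh.IsCoh M := isCoh_of_isFinLocFree hM
  have h1 := hM'.1
  have h2 := hN.1
  have h3 := Groth.Agent.S2297.result M (DCoh.HD (DerivedCategory.Q.obj K) i)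
  exact ⟨h3.1, h3.2 hM'.2 hN.2⟩

/-- Derived tensor product of a strictly perfect complex with a complex with coherent cohomology. -/
theorem coh_of_isStrictlyPerfect [IsLocallyNoetherian X] (K : CochainComplex X.Modules ℤ)
    [DCoh.HasLTensorCx K] (hK : CohomIn.coh (cohp X) (DerivedCategory.Q.obj K))
    (F : CochainComplex X.Modules ℤ) (hF : DCoh.IsStrictlyPerfect F) :
    CohomIn.coh (cohp X) ((DCoh.LTensorCx K).obj (DerivedCategory.Q.obj F)) := by
  obtain ⟨⟨a, b, hab⟩, hF'⟩ := hF
  have htri := TensRes.isTriang_LTensorCx K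
  have hadd := htri.additive
  obtain ⟨_, _⟩ := htri
  refine Devissage.devissage (fun D => CohomIn.coh (cohp X) ((DCoh.LTensorCx K).obj D))
    (fun e h => (CohomIn.coh (cohp X)).prop_of_iso ((DCoh.LTensorCx K).mapIso e) h) ?_ ?_ F a b hab ?_
  · intro D hD h₁ h₃
    exact (CohomIn.coh (cohp X)).ext_of_isTriangulatedClosed₂
      ((DCoh.LTensorCx K).mapTriangle.obj D) ((DCoh.LTensorCx K).map_distinguished D hD) h₁ h₃
  · intro D hD i
    exact isCoh_of_isZero (Functor.map_isZero _ (Functor.map_isZero _ hD))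
  · intro i _ _
    let e : (DerivedCategory.singleFunctor X.Modules i).obj (F.X i) ≅
        ((DerivedCategory.singleFunctor X.Modules 0).obj (F.X i))⟦-i⟧ :=
      (((DerivedCategory.singleFunctors X.Modules).shiftIso (-i) i 0 (by lia)).app (F.X i)).symm
    refine (CohomIn.coh (cohp X)).prop_of_iso ((DCoh.LTensorCx K).mapIso e ≪≫
      ((DCoh.LTensorCx K).commShiftIso (-i)).app _).symm
        ((CohomIn.coh (cohp X)).le_shift (-i) _ ?_)
    obtain ⟨e'⟩ := TensDev.nonempty_isoQ K (TensRes.kf₂_of_isKFlat
      (KFlatMod.isKFlat_single (F.X i) (Spread.isFlat_of_isFinLocFree (hF' i)) 0))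
    exact (CohomIn.coh (cohp X)).prop_of_iso e'.symm (isCohD_tensor_single (F.X i) (hF' i) K hK)

/-- The cone of a morphism which is an isomorphism on `H^i` for `i > m` and an epimorphism on `H^m`
is concentrated in degrees `< m`. -/
lemma isLE_cone {A : Type*} [Category* A] [Abelian A] [HasDerivedCategory A]
    (T : Triangle (DerivedCategory A)) (hT : T ∈ distTriang _) (m : ℤ)
    (h₁ : ∀ i : ℤ, m < i → IsIso ((DerivedCategory.homologyFunctor A i).map T.mor₁))
    (h₂ : Epi ((DerivedCategory.homologyFunctor A m).map T.mor₁)) (c : ℤ) (hc : c + 1 = m) :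
    T.obj₃.IsLE c := by
  rw [DerivedCategory.isLE_iff]
  intro i hi
  have hepi1 : Epi ((DerivedCategory.homologyFunctor A i).map T.mor₁) := by
    by_cases him : i = m
    · subst him; exact h₂
    · have := h₁ i (by omega)
      infer_instance
  have hz2 : (DerivedCategory.homologyFunctor A i).map T.mor₂ = 0 :=
    (DerivedCategory.HomologySequence.epi_homologyMap_mor₁_iff T hT i).1 hepi1
  have hmono1 : Mono ((DerivedCategory.homologyFunctor A (i + 1)).map T.mor₁) := by
    have := h₁ (i + 1) (by omega)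
    infer_instance
  have hzδ : DerivedCategory.HomologySequence.δ T i (i + 1) rfl = 0 :=
    (DerivedCategory.HomologySequence.mono_homologyMap_mor₁_iff T hT i (i + 1) rfl).1 hmono1
  have hepi : Epi ((DerivedCategory.homologyFunctor A i).map T.mor₂) :=
    (DerivedCategory.HomologySequence.epi_homologyMap_mor₂_iff T hT i (i + 1) rfl).2 hzδ
  rw [hz2] at hepi
  exact IsZero.of_epi_zero ((DerivedCategory.homologyFunctor A i).obj T.obj₂) _

/-- If the third object of a distinguished triangle is in degrees `≤ c`, the first morphism is an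
isomorphism on `H^i` for `i > c + 1`. -/
lemma isIso_of_isLE {A : Type*} [Category* A] [Abelian A] [HasDerivedCategory A]
    (T : Triangle (DerivedCategory A)) (hT : T ∈ distTriang _) (c : ℤ) (h : T.obj₃.IsLE c) (i : ℤ)
    (hi : c + 1 < i) : IsIso ((DerivedCategory.homologyFunctor A i).map T.mor₁) := by
  have h3 : IsZero ((DerivedCategory.homologyFunctor A i).obj T.obj₃) :=
    T.obj₃.isZero_of_isLE c i (by omega)
  have h3' : IsZero ((DerivedCategory.homologyFunctor A (i - 1)).obj T.obj₃) :=
    T.obj₃.isZero_of_isLE c (i - 1) (by omega)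
  have h1 : Epi ((DerivedCategory.homologyFunctor A i).map T.mor₁) :=
    (DerivedCategory.HomologySequence.epi_homologyMap_mor₁_iff T hT i).2 (h3.eq_of_tgt _ _)
  have h2 : Mono ((DerivedCategory.homologyFunctor A i).map T.mor₁) :=
    (DerivedCategory.HomologySequence.mono_homologyMap_mor₁_iff T hT (i - 1) i (by omega)).2
      (h3'.eq_of_src _ _)
  exact isIso_of_mono_of_epi _

/-- On a locally Noetherian scheme, the derived tensor product of an object which is
`m`-pseudo-coherent for all `m` with a bounded above complex with coherent cohomology has coherent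
cohomology. -/
theorem isCohD_LTensorCx [IsLocallyNoetherian X] (K : CochainComplex X.Modules ℤ)
    [DCoh.HasLTensorCx K] (b : ℤ) (hb : (DCoh.toD X K).IsLE b) (hK : DCoh.IsCohD (DCoh.toD X K))
    (E : DCoh.D X) (hE : ∀ m : ℤ, DCoh.IsPseudoCoherentD m E) :
    DCoh.IsCohD ((DCoh.LTensorCx K).obj E) := by
  intro i
  refine isCoh_of_restrict _ fun x => ?_
  obtain ⟨V, hxV, F, α, hF, h1, h2⟩ :=
    (Restrict.isPseudoCoherentD_iff (i - b - 1) E).1 (hE _) x
  refine ⟨V, hxV, ?_⟩
  have hV : IsLocallyNoetherian (V : Scheme.{u}) := isLocallyNoetherian_of_isOpenImmersion V.ι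
  let KV := (TensRes.resCx V.ι).obj K
  have hlt : DCoh.HasLTensorCx KV := TensRes.hasLTensorCx KV
  obtain ⟨e1⟩ := TensRes.nonempty_restrict_LTensorCx V.ι K E
  have hKV : CohomIn.coh (cohp (V : Scheme.{u})) (DerivedCategory.Q.obj KV) :=
    (CohomIn.coh (cohp (V : Scheme.{u}))).prop_of_iso (Restrict.restrictDQ V.ι K) fun j =>
      isCoh_of_iso (Restrict.HDrestrict V.ι _ j).symm (isCoh_restrict V.ι (hK j))
  have hbV0 : ((Restrict.restrictD V.ι).obj (DCoh.toD X K)).IsLE b := ExactD.isLE_map _ _ b
  have hbV : (DCoh.toD (V : Scheme.{u}) KV).IsLE b :=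
    DerivedCategory.TStructure.t.isLE_of_iso (Restrict.restrictDQ V.ι K) b
  obtain ⟨C, β, γ, hT⟩ := distinguished_cocone_triangle α
  have hC : C.IsLE (i - b - 2) :=
    isLE_cone (Triangle.mk α β γ) hT (i - b - 1) h1 h2 (i - b - 2) (by omega)
  have htri := TensRes.isTriang_LTensorCx KV
  have hadd := htri.additive
  obtain ⟨_, _⟩ := htri
  have hC' : ((DCoh.LTensorCx KV).obj C).IsLE (i - b - 2 + b) :=
    LTBound.isLE_LTensorCx TensDev.bifData KV b C (i - b - 2)
  have hiso : IsIso ((DerivedCategory.homologyFunctor _ i).map ((DCoh.LTensorCx KV).map α)) :=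
    isIso_of_isLE ((DCoh.LTensorCx KV).mapTriangle.obj (Triangle.mk α β γ))
      ((DCoh.LTensorCx KV).map_distinguished _ hT) (i - b - 2 + b) hC' i (by omega)
  have hcF := coh_of_isStrictlyPerfect KV hKV F hF i
  refine isCoh_of_iso ?_ hcF
  exact asIso ((DerivedCategory.homologyFunctor _ i).map ((DCoh.LTensorCx KV).map α)) ≪≫
    (DerivedCategory.homologyFunctor _ i).mapIso e1.symm ≪≫ Restrict.HDrestrict V.ι _ i

end Groth.Agent.Htor.H250.TensCohPc
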